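import Cfsg.Agent.Lib.Characters.OddReal

/-!
# The Frobenius–Schur indicator is an integer
-/

set_option autoImplicit false
set_option linter.unusedSectionVars false

namespace Cfsg.Lib.Characters

open Finset
open scoped ComplexConjugate

variable {G : Type*} [Group G] [Fintype G]

set_option maxHeartbeats 1000000 in
/-- The averaged transposition is a difference of two projections. -/
theorem fs_exists_int {χ : G → ℂ} (hχ : IsIrrCharacter G χ) :
    ∃ m : ℤ, (Nat.card G : ℂ)⁻¹ * ∑ g, χ (g * g) = m := by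
  classical
  obtain ⟨n, ρ, hρ, rfl⟩ := hχ
  set A : G → Matrix (Fin n) (Fin n) ℂ := fun g => LinearMap.toMatrix' (ρ g) with hA
  have hmul : ∀ g h, A (g * h) = A g * A h := fun g h => by
    simp only [hA, map_mul]; exact LinearMap.toMatrix'_mul _ _
  have hone : A 1 = 1 := by simp only [hA, map_one]; exact LinearMap.toMatrix'_one
  have htr : ∀ g, ρ.character g = (A g).trace := fun g => by
    simp only [hA, Representation.character]
    rw [LinearMap.trace_eq_matrix_trace ℂ (Pi.basisFun ℂ (Fin n)), LinearMap.toMatrix_eq_toMatrix']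
  -- the averaging projection
  let π : Matrix (Fin n) (Fin n) ℂ →ₗ[ℂ] Matrix (Fin n) (Fin n) ℂ :=
    { toFun := fun M => (Nat.card G : ℂ)⁻¹ • ∑ g, (A g).transpose * M * A g
      map_add' := fun M N => by
        simp only [Matrix.mul_add, Matrix.add_mul, Finset.sum_add_distrib, smul_add]
      map_smul' := fun c M => by
        simp only [Matrix.mul_smul, Matrix.smul_mul, ← Finset.smul_sum, RingHom.id_apply,
          smul_comm c] }
  let inv : Submodule ℂ (Matrix (Fin n) (Fin n) ℂ) :=
    { carrier := {M | ∀ g, (A g).transpose * M * A g = M}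
      add_mem' := fun {M N} hM hN g => by rw [Matrix.mul_add, Matrix.add_mul, hM g, hN g]
      zero_mem' := fun g => by simp
      smul_mem' := fun c M hM g => by rw [Matrix.mul_smul, Matrix.smul_mul, hM g] }
  have hproj : LinearMap.IsProj inv π := by
    constructor
    · intro M g
      simp only [π, LinearMap.coe_mk, AddHom.coe_mk, Matrix.mul_smul, Matrix.smul_mul, Matrix.mul_sum,
        Matrix.sum_mul]
      congr 1
      refine Fintype.sum_equiv (Equiv.mulRight g) _ _ fun h => ?_
      simp only [Equiv.coe_mulRight, hmul, Matrix.transpose_mul, Matrix.mul_assoc]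
    · intro M hM
      simp only [π, LinearMap.coe_mk, AddHom.coe_mk]
      rw [Finset.sum_congr rfl fun g _ => hM g, Finset.sum_const, Finset.card_univ,
        ← Nat.card_eq_fintype_card, ← Nat.cast_smul_eq_nsmul ℂ, smul_smul,
        inv_mul_cancel₀ (Nat.cast_ne_zero.mpr Nat.card_pos.ne'), one_smul]
  -- traces as double sums
  have hdiag : ∀ T : Matrix (Fin n) (Fin n) ℂ →ₗ[ℂ] Matrix (Fin n) (Fin n) ℂ,
      LinearMap.trace ℂ _ T = ∑ i, ∑ j, T (Matrix.single i j (1 : ℂ)) i j := by
    intro T
    rw [LinearMap.trace_eq_matrix_trace ℂ (Matrix.stdBasis ℂ (Fin n) (Fin n)), Matrix.trace,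
      Fintype.sum_prod_type]
    refine Finset.sum_congr rfl fun i _ => Finset.sum_congr rfl fun j _ => ?_
    rw [Matrix.diag_apply, LinearMap.toMatrix_apply, Matrix.stdBasis_eq_single]
    rfl
  have hsingle : ∀ (g : G) (i j k l : Fin n),
      ((A g).transpose * Matrix.single i j (1 : ℂ) * A g) k l = A g i k * A g j l := by
    intro g i j k l
    simp [Matrix.mul_apply, Matrix.single_apply, ite_and]
  set τ : Matrix (Fin n) (Fin n) ℂ →ₗ[ℂ] Matrix (Fin n) (Fin n) ℂ :=
    (Matrix.transposeLinearEquiv (Fin n) (Fin n) ℂ ℂ).toLinearMap with hτ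
  set T := τ ∘ₗ π with hT
  have hcomm : ∀ M, π (τ M) = τ (π M) := fun M => by
    show π M.transpose = (π M).transpose
    simp only [π, LinearMap.coe_mk, AddHom.coe_mk, Matrix.transpose_smul, Matrix.transpose_sum,
      Matrix.transpose_mul, Matrix.transpose_transpose, Matrix.mul_assoc]
  have hππ : ∀ M, π (π M) = π M := fun M => hproj.map_id _ (hproj.map_mem M)
  have hττ : ∀ M, τ (τ M) = M := fun M => Matrix.transpose_transpose M
  have hpT : π * T = T := LinearMap.ext fun M => by
    show π (τ (π M)) = τ (π M)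
    rw [hcomm, hππ]
  have hTp : T * π = T := LinearMap.ext fun M => by
    show τ (π (π M)) = τ (π M)
    rw [hππ]
  have hTT : T * T = π := LinearMap.ext fun M => by
    show τ (π (τ (π M))) = π M
    rw [hcomm, hττ, hππ]
  have hpp : π * π = π := LinearMap.ext hππ
  have hid : ∀ c : ℂ, c * c = 1 → IsIdempotentElem ((1 / 2 : ℂ) • (π + c • T)) := by
    intro c hc
    simp only [IsIdempotentElem, mul_add, add_mul, mul_smul_comm, smul_mul_assoc,
      hpT, hTp, hTT, hpp, smul_smul]
    match_scalars <;> ring_nf <;> simp only [sq, hc] <;> ring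
  have hp := (LinearMap.IsIdempotentElem.isProj_range _ (hid 1 (one_mul 1))).trace
  have hm := (LinearMap.IsIdempotentElem.isProj_range _ (hid (-1) (by norm_num))).trace
  refine ⟨(Module.finrank ℂ (LinearMap.range ((1 / 2 : ℂ) • (π + (1 : ℂ) • T))) : ℤ) -
    (Module.finrank ℂ (LinearMap.range ((1 / 2 : ℂ) • (π + (-1 : ℂ) • T))) : ℤ), ?_⟩
  push_cast
  rw [← hp, ← hm]
  simp only [map_smul, map_add, smul_eq_mul]
  ring_nf
  rw [hdiag]
  have hap : ∀ (M : Matrix (Fin n) (Fin n) ℂ) (i j : Fin n), T M i j = π M j i := fun _ _ _ => rfl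
  simp only [hap, π, LinearMap.coe_mk, AddHom.coe_mk,
    Matrix.smul_apply, Matrix.sum_apply, hsingle, smul_eq_mul, ← Finset.mul_sum]
  congr 1
  rw [Finset.sum_congr rfl fun i _ => Finset.sum_comm, Finset.sum_comm]
  refine Finset.sum_congr rfl fun g _ => ?_
  rw [htr, hmul, Matrix.trace]
  refine Finset.sum_congr rfl fun i _ => ?_
  rw [Matrix.diag_apply, Matrix.mul_apply]

end Cfsg.Lib.Characters
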