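import Mathlib
import Cfsg.Agent.Lib.Characters.Integrality

/-! Counting factorisations inside a conjugacy class with characters. -/

set_option autoImplicit false

namespace Cfsg.Lib.Characters

open Cfsg Finset
open scoped ComplexConjugate

variable {G : Type*} [Group G]

/-- The number of ways of writing `c` as a product of two conjugates of `t`. -/
noncomputable def pairCount (t c : G) : ℕ :=
  Nat.card {p : G × G // IsConj t p.1 ∧ IsConj t p.2 ∧ p.1 * p.2 = c}

variable [Finite G]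

theorem pairCount_formula (t c : G) :
    (Nat.card G : ℂ) * pairCount t c = (Nat.card {x : G // IsConj t x} : ℂ) ^ 2 *
      ∑ χ : IrrCharacter G, (χ : G → ℂ) t ^ 2 * conj ((χ : G → ℂ) c) / (χ : G → ℂ) 1 := by
  classical
  haveI := Fintype.ofFinite G
  let K : Finset G := Finset.univ.filter fun x => IsConj t x
  have hK : (Nat.card {x : G // IsConj t x}) = K.card := by
    rw [Nat.card_eq_fintype_card, Fintype.card_subtype]
  have h1 : ∀ χ : IrrCharacter G, ∑ x ∈ K, ∑ y ∈ K, (χ : G → ℂ) (x * y) =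
      (K.card : ℂ) ^ 2 * (χ : G → ℂ) t ^ 2 / (χ : G → ℂ) 1 := by
    intro χ
    have h0 := χ.2.one_ne_zero
    obtain ⟨n, ρ, hρ, he⟩ := χ.2
    rw [← he] at h0 ⊢
    obtain ⟨ω, hω, -, hω'⟩ := sum_conj_class ρ t
    rw [← hK, eq_div_iff h0]
    have h2 : ∑ x ∈ K, ∑ y ∈ K, ρ.character (x * y) = ω * ω * ρ.character 1 := by
      have h3 := congrArg (LinearMap.trace ℂ (Fin n → ℂ)) (congrArg₂ (· * ·) hω hω)
      simp only [Finset.sum_mul, Finset.mul_sum, map_sum] at h3
      rw [Finset.sum_comm] at h3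
      rw [Representation.char_one]
      refine (Finset.sum_congr rfl fun x _ => Finset.sum_congr rfl fun y _ => ?_).trans (h3.trans ?_)
      · show LinearMap.trace ℂ _ (ρ (x * y)) = _
        rw [map_mul]
      · rw [← Module.End.one_eq_id, smul_mul_smul_comm, one_mul, map_smul, Module.End.one_eq_id,
          LinearMap.trace_id, smul_eq_mul]
    rw [h2]
    linear_combination (ω * ρ.character 1 + (Nat.card {x : G // IsConj t x} : ℂ) * ρ.character t) * hω'
  have h4 : ∑ χ : IrrCharacter G, (∑ x ∈ K, ∑ y ∈ K, (χ : G → ℂ) (x * y)) * conj ((χ : G → ℂ) c) =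
      (Nat.card G : ℂ) * pairCount t c := by
    simp only [Finset.sum_mul]
    rw [Finset.sum_comm]
    conv_lhs => arg 2; ext x; rw [Finset.sum_comm]
    simp only [column_orthogonality]
    rw [← Finset.sum_product']
    rw [← Finset.sum_filter, Finset.sum_const, nsmul_eq_mul]
    have hn : ((K ×ˢ K).filter fun p => IsConj (p.1 * p.2) c).card =
        Nat.card {x : G // IsConj c x} * pairCount t c := by
      have hcl : ∀ (g x : G), IsConj t x → IsConj t (g * x * g⁻¹) := fun g x hx =>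
        hx.trans (isConj_iff.2 ⟨g, rfl⟩)
      choose f hf using fun z : {x : G // IsConj c x} => isConj_iff.1 z.2
      let e : {x : G // IsConj c x} × {p : G × G // IsConj t p.1 ∧ IsConj t p.2 ∧ p.1 * p.2 = c} ≃
          {p : G × G // p ∈ (K ×ˢ K).filter fun p => IsConj (p.1 * p.2) c} :=
        { toFun := fun zp => ⟨(f zp.1 * zp.2.1.1 * (f zp.1)⁻¹, f zp.1 * zp.2.1.2 * (f zp.1)⁻¹), by
            simp only [K, Finset.mem_filter, Finset.mem_product, Finset.mem_univ, true_and]
            refine ⟨⟨hcl _ _ zp.2.2.1, hcl _ _ zp.2.2.2.1⟩, IsConj.symm (isConj_iff.2 ⟨f zp.1, ?_⟩)⟩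
            exact (congrArg (fun w => f zp.1 * w * (f zp.1)⁻¹) zp.2.2.2.2).symm.trans (by group)⟩
          invFun := fun p => by
            have hp := p.2
            simp only [K, Finset.mem_filter, Finset.mem_product, Finset.mem_univ, true_and] at hp
            refine (⟨p.1.1 * p.1.2, hp.2.symm⟩,
              ⟨((f ⟨p.1.1 * p.1.2, hp.2.symm⟩)⁻¹ * p.1.1 * f ⟨p.1.1 * p.1.2, hp.2.symm⟩,
                (f ⟨p.1.1 * p.1.2, hp.2.symm⟩)⁻¹ * p.1.2 * f ⟨p.1.1 * p.1.2, hp.2.symm⟩), ?_, ?_, ?_⟩)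
            · simpa using hcl (f ⟨p.1.1 * p.1.2, hp.2.symm⟩)⁻¹ _ hp.1.1
            · simpa using hcl (f ⟨p.1.1 * p.1.2, hp.2.symm⟩)⁻¹ _ hp.1.2
            · have h := hf ⟨p.1.1 * p.1.2, hp.2.symm⟩
              generalize f ⟨p.1.1 * p.1.2, hp.2.symm⟩ = g at h ⊢
              calc g⁻¹ * p.1.1 * g * (g⁻¹ * p.1.2 * g) = g⁻¹ * (p.1.1 * p.1.2) * g := by group
                _ = c := by
                  rw [show p.1.1 * p.1.2 = g * c * g⁻¹ from h.symm]; group
          left_inv := fun zp => by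
            have hz : f zp.1 * zp.2.1.1 * (f zp.1)⁻¹ * (f zp.1 * zp.2.1.2 * (f zp.1)⁻¹) = zp.1.1 := by
              exact ((by group : _ = f zp.1 * (zp.2.1.1 * zp.2.1.2) * (f zp.1)⁻¹)).trans
                ((congrArg (fun w => f zp.1 * w * (f zp.1)⁻¹) zp.2.2.2.2).trans (hf zp.1))
            have hz' : (⟨f zp.1 * zp.2.1.1 * (f zp.1)⁻¹ * (f zp.1 * zp.2.1.2 * (f zp.1)⁻¹),
                hz ▸ zp.1.2⟩ : {x : G // IsConj c x}) = zp.1 := Subtype.ext hz
            refine Prod.ext hz' (Subtype.ext (Prod.ext ?_ ?_))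
            · show (f _)⁻¹ * (f zp.1 * zp.2.1.1 * (f zp.1)⁻¹) * f _ = zp.2.1.1
              rw [hz']; group
            · show (f _)⁻¹ * (f zp.1 * zp.2.1.2 * (f zp.1)⁻¹) * f _ = zp.2.1.2
              rw [hz']; group
          right_inv := fun p => by
            refine Subtype.ext (Prod.ext ?_ ?_) <;> simp [mul_assoc] }
      rw [← Fintype.card_coe, ← Nat.card_eq_fintype_card, ← Nat.card_congr e, Nat.card_prod]
      rfl
    rw [hn, Nat.cast_mul]
    have hc := card_conj_mul_card_centralizer c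
    rw [show (Nat.card G : ℂ) = (Nat.card {x : G // IsConj c x} : ℂ) * Nat.card (Subgroup.centralizer ({c} : Set G)) by
      rw [← Nat.cast_mul, hc]]
    ring
  rw [← h4, hK, Finset.mul_sum]
  refine Finset.sum_congr rfl fun χ _ => ?_
  rw [h1 χ]
  ring

end Cfsg.Lib.Characters
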