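import Mathlib

/-!
A group with a trivial intersection Sylow `p`-subgroup has, in a representation of degree less than the
order of that subgroup, no more fixed vectors on the normalizer than on the whole group.
-/

set_option autoImplicit false

open Module

namespace Cfsg.Lib.Characters.SmallFixed

theorem exists_valuationSubring (p : ℕ) (hp : p.Prime) :
    ∃ V : ValuationSubring ℂ, ((p : V) ∈ IsLocalRing.maximalIdeal V) := by
  set A : Subring ℂ := (Int.castRingHom ℂ).range with hA
  have hI : Ideal.span {((p : A))} ≠ ⊤ := by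
    rw [Ne, Ideal.span_singleton_eq_top, isUnit_iff_exists_inv]
    rintro ⟨⟨_, z, rfl⟩, hz⟩
    have h1 : ((p : ℤ) : ℂ) * (z : ℂ) = 1 := by simpa using congrArg Subtype.val hz
    rw [← Int.cast_mul, ← Int.cast_one, Int.cast_inj] at h1
    have h2 := Int.natAbs_mul (p : ℤ) z ▸ congrArg Int.natAbs h1
    simp at h2
    exact hp.one_lt.ne' h2.1
  obtain ⟨V, hV, hVI⟩ := Ideal.image_subset_nonunits_valuationSubring _ hI
  refine ⟨V, ?_⟩
  have h1 : (p : ℂ) ∈ V.nonunits := hVI ⟨(p : A), Ideal.mem_span_singleton_self _, by simp⟩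
  rw [← ValuationSubring.coe_mem_nonunits_iff]
  simpa using h1

variable {G W : Type*} [Group G] [AddCommGroup W] [Module ℂ W] [FiniteDimensional ℂ W]

/-- The norm element of a `p`-group of order larger than the dimension lowers a lattice. -/
theorem norm_mem [Finite G] {p : ℕ} [Fact p.Prime] (P : Subgroup G) [Fintype P] (hP : IsPGroup p P)
    (V : ValuationSubring ℂ) (hpV : (p : V) ∈ IsLocalRing.maximalIdeal V)
    (ρ : Representation ℂ G W) (hdim : finrank ℂ W < Fintype.card P)
    (M : Submodule V W) (hM : ∀ g : G, ∀ x ∈ M, ρ g x ∈ M) {x : W} (hx : x ∈ M) :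
    ∑ u : P, ρ u x ∈ IsLocalRing.maximalIdeal V • M := by
  classical
  set m := IsLocalRing.maximalIdeal V
  set N := m • M
  let k := IsLocalRing.ResidueField V
  have hchar : (p : k) = 0 := by
    rw [← map_natCast (IsLocalRing.residue V)]
    exact Ideal.Quotient.eq_zero_iff_mem.mpr hpV
  have : CharP k p := CharP.charP_iff_prime_eq_zero (Fact.out) |>.mpr hchar
  let _ : Algebra (ZMod p) k := ZMod.algebra k p
  have hstab : ∀ g : G, ∀ y ∈ N, ρ g y ∈ N := by
    intro g y hy
    induction hy using Submodule.smul_induction_on' with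
    | smul a ha y hy =>
      rw [show a • y = (a : ℂ) • y from rfl, map_smul]
      exact Submodule.smul_mem_smul ha (hM g y hy)
    | add y hy z hz ihy ihz => rw [map_add]; exact N.add_mem ihy ihz
  -- residues of the relations
  let K : AddSubgroup (P → k) :=
    { carrier := {a | ∃ b : P → V, (∀ u, IsLocalRing.residue V (b u) = a u) ∧ ∑ u, b u • ρ u x ∈ N}
      zero_mem' := ⟨fun _ => 0, fun _ => map_zero _, by simp⟩
      add_mem' := by
        rintro a a' ⟨b, hb, hbs⟩ ⟨b', hb', hbs'⟩
        refine ⟨b + b', fun u => by rw [Pi.add_apply, map_add, hb, hb', Pi.add_apply], ?_⟩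
        simp only [Pi.add_apply, add_smul, Finset.sum_add_distrib]
        exact N.add_mem hbs hbs'
      neg_mem' := by
        rintro a ⟨b, hb, hbs⟩
        refine ⟨-b, fun u => by rw [Pi.neg_apply, map_neg, hb, Pi.neg_apply], ?_⟩
        simp only [Pi.neg_apply, neg_smul, Finset.sum_neg_distrib]
        exact N.neg_mem hbs }
  have hKT : ∀ (w : P) (a : P → k), a ∈ K → (fun u => a (w⁻¹ * u)) ∈ K := by
    rintro w a ⟨b, hb, hbs⟩
    refine ⟨fun u => b (w⁻¹ * u), fun u => hb _, ?_⟩
    have h1 := hstab w _ hbs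
    rw [map_sum] at h1
    rw [← Equiv.sum_comp (Equiv.mulLeft w)]
    convert h1 using 1
    refine Finset.sum_congr rfl fun u _ => ?_
    simp only [Equiv.coe_mulLeft, inv_mul_cancel_left]
    rw [show b u • ρ (u : G) x = ((b u : ℂ)) • ρ (u : G) x from rfl, map_smul, ← Module.End.mul_apply, ← map_mul]
    rfl
  -- a relation
  obtain ⟨a₀, ha₀, ha₀ne⟩ : ∃ a ∈ K, a ≠ 0 := by
    have hdep : ¬ LinearIndependent ℂ (fun u : P => ρ u x) := fun h => by
      have := h.fintype_card_le_finrank
      omega
    obtain ⟨g, hg, i, hi⟩ := Fintype.not_linearIndependent_iff.mp hdep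
    obtain ⟨j, -, hj⟩ := Finset.exists_max_image Finset.univ (fun u => V.valuation (g u)) ⟨i, Finset.mem_univ i⟩
    have hj0 : g j ≠ 0 := by
      intro h
      have := hj i (Finset.mem_univ i)
      rw [h, map_zero] at this
      exact hi ((map_eq_zero _).mp (le_zero_iff.mp this))
    have hmem : ∀ u, g u * (g j)⁻¹ ∈ V := by
      intro u
      rw [← ValuationSubring.valuation_le_one_iff, map_mul, map_inv₀]
      exact mul_inv_le_one_of_le₀ (hj u (Finset.mem_univ u)) zero_le'
    refine ⟨fun u => IsLocalRing.residue V ⟨_, hmem u⟩, ⟨fun u => ⟨_, hmem u⟩, fun u => rfl, ?_⟩, fun h => ?_⟩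
    · have : ∑ u, (⟨g u * (g j)⁻¹, hmem u⟩ : V) • ρ u x = (0 : W) := by
        show ∑ u, (g u * (g j)⁻¹) • ρ u x = 0
        simp only [mul_comm (g _), mul_smul]
        rw [← Finset.smul_sum, hg, smul_zero]
      rw [this]
      exact N.zero_mem
    · have h1 : IsLocalRing.residue V ⟨_, hmem j⟩ = 0 := congrFun h j
      rw [show (⟨g j * (g j)⁻¹, hmem j⟩ : V) = 1 from Subtype.ext (mul_inv_cancel₀ hj0), map_one] at h1
      exact one_ne_zero h1
  -- its translates span a finite set, with a fixed point
  let S : Submodule (ZMod p) (P → k) :=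
    Submodule.span (ZMod p) (Set.range fun w : P => fun u => a₀ (w⁻¹ * u))
  have hSK : ∀ a ∈ S, a ∈ K := by
    intro a ha
    induction ha using Submodule.span_induction with
    | mem a ha => obtain ⟨w, rfl⟩ := ha; exact hKT w _ ha₀
    | zero => exact K.zero_mem
    | add a b _ _ ha hb => exact K.add_mem ha hb
    | smul c a _ ha =>
      rw [← ZMod.natCast_zmod_val c, Nat.cast_smul_eq_nsmul]
      exact K.nsmul_mem ha _
  have hST : ∀ (w : P) (a : P → k), a ∈ S → (fun u => a (w⁻¹ * u)) ∈ S := by
    intro w a ha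
    induction ha using Submodule.span_induction with
    | mem a ha =>
      obtain ⟨v, rfl⟩ := ha
      refine Submodule.subset_span ⟨w * v, ?_⟩
      funext u
      simp [mul_assoc]
    | zero => exact S.zero_mem
    | add a b _ _ ha hb => exact S.add_mem ha hb
    | smul c a _ ha => exact S.smul_mem c ha
  have : Module.Finite (ZMod p) S := Module.Finite.span_of_finite _ (Set.finite_range _)
  have : Finite S := Module.finite_of_finite (ZMod p)
  let act : MulAction P S :=
    { smul := fun w a => ⟨fun u => (a : P → k) (w⁻¹ * u), hST w _ a.2⟩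
      one_smul := fun a => Subtype.ext (funext fun u => show (a : P → k) (1⁻¹ * u) = _ by rw [inv_one, one_mul])
      mul_smul := fun v w a => Subtype.ext (funext fun u => show (a : P → k) ((v * w)⁻¹ * u) = (a : P → k) (w⁻¹ * (v⁻¹ * u)) by
        rw [mul_inv_rev, mul_assoc]) }
  have hdvd : p ∣ Nat.card S := by
    have ha₀S : a₀ ∈ S := Submodule.subset_span ⟨1, by funext u; simp⟩
    have : Nontrivial S := ⟨⟨⟨a₀, ha₀S⟩, 0, fun h => ha₀ne (congrArg Subtype.val h)⟩⟩
    rw [Module.natCard_eq_pow_finrank (K := ZMod p) (V := S), Nat.card_zmod]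
    exact dvd_pow_self p Module.finrank_pos.ne'
  obtain ⟨c, hc, hc0⟩ := hP.exists_fixed_point_of_prime_dvd_card_of_fixed_point (α := S) hdvd (a := 0)
    (fun w => Subtype.ext (funext fun _ => rfl))
  have hconst : ∀ w : P, (c : P → k) w = (c : P → k) 1 := by
    intro w
    have h1 := congrArg (fun a : S => (a : P → k) w) (hc w)
    have h2 : (c : P → k) (w⁻¹ * w) = (c : P → k) w := h1
    rw [inv_mul_cancel] at h2
    exact h2.symm
  have hc1 : (c : P → k) 1 ≠ 0 := fun h => hc0 (Subtype.ext (funext fun w => ((hconst w).trans h).symm))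
  obtain ⟨b, hb, hbs⟩ := hSK _ c.2
  have hdiff : ∀ u, b u - b 1 ∈ m := by
    intro u
    rw [← IsLocalRing.residue_eq_zero_iff, map_sub, hb, hb, hconst, sub_self]
  have hmain : b 1 • ∑ u : P, ρ u x ∈ N := by
    have h1 : ∑ u : P, (b u - b 1) • ρ u x ∈ N :=
      N.sum_mem fun u _ => Submodule.smul_mem_smul (hdiff u) (hM _ _ hx)
    have h2 := N.sub_mem hbs h1
    simp only [sub_smul, Finset.sum_sub_distrib, sub_sub_cancel] at h2
    rwa [Finset.smul_sum]
  have hunit : IsUnit (b 1) := by
    rw [← IsLocalRing.residue_ne_zero_iff_isUnit, hb]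
    exact hc1
  obtain ⟨v, hv⟩ := hunit.exists_left_inv
  have := N.smul_mem v hmain
  rwa [smul_smul, hv, one_smul] at this

/-- Vectors fixed by an overgroup of the normalizer of a trivial intersection Sylow subgroup. -/
theorem fixed_eq_fixed [Fintype G] {p : ℕ} [Fact p.Prime] (P : Subgroup G) (hP : IsPGroup p P)
    (H : Subgroup G) (hfree : ∀ (g : G) (u : G), u ∈ P → g ∉ H → g⁻¹ * u * g ∈ H → u = 1)
    (hPH : P ≤ H) (ρ : Representation ℂ G W) (hdim : finrank ℂ W < Nat.card P)
    (v : W) (hv : ∀ h ∈ H, ρ h v = v) (hsum : ∑ g : G, ρ g v = 0) : v = 0 := by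
  classical
  have : Fintype P := Fintype.ofFinite P
  have : Fintype H := Fintype.ofFinite H
  rw [Nat.card_eq_fintype_card] at hdim
  obtain ⟨V, hpV⟩ := exists_valuationSubring p (Fact.out : p.Prime)
  set M : Submodule V W := Submodule.span V (Set.range fun g : G => ρ g v) with hMdef
  have hM : ∀ g : G, ∀ x ∈ M, ρ g x ∈ M := by
    intro g x hx
    induction hx using Submodule.span_induction with
    | mem x hx =>
      obtain ⟨a, rfl⟩ := hx
      exact Submodule.subset_span ⟨g * a, by simp [map_mul]⟩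
    | zero => rw [map_zero]; exact M.zero_mem
    | add x y _ _ hx hy => rw [map_add]; exact M.add_mem hx hy
    | smul c x _ hx =>
      rw [show c • x = (c : ℂ) • x from rfl, map_smul]
      exact M.smul_mem c hx
  set N := IsLocalRing.maximalIdeal V • M
  let F : G ⧸ H → W := fun q => ρ q.out v
  have hF : ∀ g : G, F (QuotientGroup.mk g) = ρ g v := by
    intro g
    obtain ⟨h, hh⟩ := QuotientGroup.mk_out_eq_mul H g
    show ρ _ v = _
    rw [hh, map_mul, Module.End.mul_apply, hv h h.2]
  have hFmul : ∀ (g : G) (q : G ⧸ H), F (g • q) = ρ g (F q) := by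
    intro g q
    induction q using QuotientGroup.induction_on with
    | _ a =>
      rw [show g • (QuotientGroup.mk a : G ⧸ H) = QuotientGroup.mk (g * a) from rfl, hF, hF, map_mul,
        Module.End.mul_apply]
  let q₀ : G ⧸ H := QuotientGroup.mk 1
  have hinv : ∀ (S : Finset (G ⧸ H)), (∀ u : P, ∀ q ∈ S, (u : G) • q ∈ S) → q₀ ∉ S → ∑ q ∈ S, F q ∈ N := by
    intro S
    induction S using Finset.strongInduction with
    | H S ih =>
      intro hS hq₀
      rcases S.eq_empty_or_nonempty with rfl | ⟨q, hq⟩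
      · simp
      obtain ⟨a, rfl⟩ := QuotientGroup.mk_surjective q
      have ha : a ∉ H := fun h => hq₀ (by
        have : (QuotientGroup.mk a : G ⧸ H) = q₀ := QuotientGroup.eq.mpr (by simpa using H.inv_mem h)
        exact this ▸ hq)
      let O := Finset.univ.image fun u : P => (u : G) • (QuotientGroup.mk a : G ⧸ H)
      have hinj : Function.Injective (fun u : P => (u : G) • (QuotientGroup.mk a : G ⧸ H)) := by
        intro u u' h
        have h0 : (QuotientGroup.mk ((u : G) * a) : G ⧸ H) = QuotientGroup.mk ((u' : G) * a) := h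
        rw [QuotientGroup.eq] at h0
        have h1 : (u : G)⁻¹ * u' = 1 := hfree a _ (P.mul_mem (P.inv_mem u.2) u'.2) ha (by
          convert h0 using 1
          group)
        exact Subtype.ext (inv_mul_eq_one.mp h1)
      have hOS : O ⊆ S := fun x hx => by
        obtain ⟨u, -, rfl⟩ := Finset.mem_image.mp hx
        exact hS u _ hq
      have hqO : (QuotientGroup.mk a : G ⧸ H) ∈ O := Finset.mem_image.mpr ⟨1, Finset.mem_univ _, one_smul _ _⟩
      have hrest := ih (S \ O) (Finset.sdiff_ssubset hOS ⟨_, hqO⟩) (fun u x hx => by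
        rw [Finset.mem_sdiff] at hx ⊢
        refine ⟨hS u x hx.1, fun h => hx.2 ?_⟩
        obtain ⟨w, -, hw⟩ := Finset.mem_image.mp h
        refine Finset.mem_image.mpr ⟨u⁻¹ * w, Finset.mem_univ _, ?_⟩
        rw [Subgroup.coe_mul, Subgroup.coe_inv, mul_smul, hw, inv_smul_smul]) (fun h => hq₀ (Finset.mem_sdiff.mp h).1)
      rw [← Finset.sum_sdiff hOS]
      refine N.add_mem hrest ?_
      rw [Finset.sum_image hinj.injOn]
      simp only [hFmul, hF]
      exact norm_mem P hP V hpV ρ hdim M hM (Submodule.subset_span ⟨a, rfl⟩)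
  have hkey := hinv (Finset.univ.erase q₀) (fun u q hq => by
      refine Finset.mem_erase.mpr ⟨fun h => (Finset.mem_erase.mp hq).1 ?_, Finset.mem_univ _⟩
      have h1 : q = (u : G)⁻¹ • q₀ := by rw [← h, inv_smul_smul]
      rw [h1]
      exact QuotientGroup.eq.mpr (by simpa using hPH u.2)) (by simp)
  have htot : ∑ q : G ⧸ H, F q = 0 := by
    have h1 : ∑ g : G, ρ g v = (Fintype.card H) • ∑ q : G ⧸ H, F q := by
      rw [← Finset.sum_fiberwise Finset.univ (fun g : G => (QuotientGroup.mk g : G ⧸ H)), Finset.smul_sum]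
      refine Finset.sum_congr rfl fun q _ => ?_
      rw [Finset.sum_congr rfl (g := fun _ => F q) (fun g hg => by rw [← (Finset.mem_filter.mp hg).2, hF]),
        Finset.sum_const]
      congr 1
      obtain ⟨a, rfl⟩ := QuotientGroup.mk_surjective q
      rw [← Finset.card_univ]
      refine Finset.card_bij' (fun g _ => if h : a⁻¹ * g ∈ H then (⟨_, h⟩ : H) else 1) (fun h _ => a * (h : G))
        (fun _ _ => Finset.mem_univ _) (fun h _ => Finset.mem_filter.mpr ⟨Finset.mem_univ _, QuotientGroup.eq.mpr (by simp)⟩)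
        (fun g hg => ?_) (fun h _ => by simp)
      have h' : a⁻¹ * g ∈ H := QuotientGroup.eq.mp (Finset.mem_filter.mp hg).2.symm
      simp [h']
    rw [hsum] at h1
    rw [← Nat.cast_smul_eq_nsmul ℂ] at h1
    exact (smul_eq_zero.mp h1.symm).resolve_left (Nat.cast_ne_zero.mpr Fintype.card_ne_zero)
  have hvN : v ∈ N := by
    rw [← Finset.add_sum_erase _ _ (Finset.mem_univ q₀), show F q₀ = v by rw [hF, map_one]; rfl,
      add_eq_zero_iff_eq_neg] at htot
    rw [htot]
    exact N.neg_mem hkey
  have hstab : ∀ g : G, ∀ y ∈ N, ρ g y ∈ N := by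
    intro g y hy
    induction hy using Submodule.smul_induction_on' with
    | smul a ha y hy =>
      rw [show a • y = (a : ℂ) • y from rfl, map_smul]
      exact Submodule.smul_mem_smul ha (hM g y hy)
    | add y hy z hz ihy ihz => rw [map_add]; exact N.add_mem ihy ihz
  have hMN : M ≤ N := Submodule.span_le.mpr (by rintro _ ⟨g, rfl⟩; exact hstab g v hvN)
  have hbot := Submodule.eq_bot_of_le_smul_of_le_jacobson_bot _ M
    (Submodule.fg_span (Set.finite_range _)) hMN (IsLocalRing.maximalIdeal_le_jacobson _)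
  have hvM : v ∈ M := Submodule.subset_span ⟨1, by simp⟩
  rw [hbot, Submodule.mem_bot] at hvM
  exact hvM

end Cfsg.Lib.Characters.SmallFixed
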